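import Cfsg.Agent.H121.OZ.JTwoCls
import Cfsg.Agent.H916.RG.Pair
import Cfsg.Agent.H345.RG.Fpr
import Cfsg.Agent.H715.Fpr.J2
import Cfsg.Agent.OddOrderLocal.CyclicSub

/-!
# S3509: `J₂`, inner elements (helper90)

The 21 classes of helper121 / `H1/J2Cls`; for the nine classes of elements whose order is divisible by two primes the pair
of elements of prime order is dead (certificates of helper916).

* `inner` : no cover of a `J₂`-set without kernel by commuting elements of different prime orders.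
-/

set_option autoImplicit false
set_option maxRecDepth 100000

namespace Cfsg.Agent.H90.RC.JTwo

open Cfsg Subgroup MulAction Cfsg.Agent.H1 Cfsg.Agent.H916.RG
open Cfsg.Agent.SporadicA.PermTab Cfsg.Agent.SporadicA.J2Hundred
open Cfsg.Agent.J2.HundredGens Cfsg.Agent.H1.J2Cls Cfsg.Agent.H1.J2Cover
open Cfsg.Agent.H121.OZ.JTwoCls (ol ov order_r type)

/-- equality of words on the base -/
def eqW (L M : List ℕ) : Bool := allB (fun i => Nat.beq (run L (bs i)) (run M (bs i))) 4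

theorem eq_of_eqW {L M : List ℕ} (h : eqW L M = true) : gw L = gw M := by
  apply Subtype.ext
  change pw _ = pw _
  apply pw_eq_of_base
  intro i hi
  exact Nat.eq_of_beq_eq_true ((allB_iff _ _).1 h i hi)

theorem ne_one_of {L : List ℕ} (h : eqW L [] = false) : gw L ≠ 1 := by
  intro h1
  have h2 : eqW L [] = true := by
    unfold eqW
    rw [allB_iff]
    intro i hi
    have h3 : pw L = 1 := congrArg Subtype.val h1
    have h4 := pw_val L ⟨bs i, bs_lt i hi⟩
    rw [h3] at h4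
    have h5 : run L (bs i) = bs i := h4.symm
    rw [h5]
    exact Nat.beq_refl _
  rw [h2] at h
  exact Bool.noConfusion h

/-- repeated word -/
def rp : ℕ → List ℕ → List ℕ
  | 0, _ => []
  | k + 1, W => W ++ rp k W

theorem gw_rp (W : List ℕ) : ∀ k : ℕ, gw (rp k W) = gw W ^ k
  | 0 => by rw [pow_zero]; exact gw_nil
  | k + 1 => by rw [rp, gw_append, gw_rp W k, pow_succ']

/-- the word of `b⁻¹ n b n⁻¹` -/
def cw (B n : List ℕ) : List ℕ := B.reverse ++ (n ++ (B ++ n.reverse))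

theorem gw_cw (B n : List ℕ) : gw (cw B n) = (gw B)⁻¹ * (gw n * gw B * (gw n)⁻¹) := by
  rw [cw, gw_append, gw_append, gw_append, gw_reverse, gw_reverse]
  group

theorem nice : Nice (⊤ : Subgroup G) := by
  obtain ⟨E⟩ := Cfsg.Agent.J2.HundredGens.J2_iso Cfsg.Agent.S1619.result.2.2.2
  have hs := (Cfsg.Agent.S1620.result).1
  have hsG : IsSimpleGroup G := (MulEquiv.isSimpleGroup_congr E.symm).2 hs
  refine nice_top hsG ?_
  intro hc
  have hs' := hsG
  have h1 : Nat.card G = 604800 := card_G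
  have hfin : Finite G := Nat.finite_of_card_ne_zero (by rw [h1]; norm_num)
  letI : CommGroup G := { (inferInstance : Group G) with mul_comm := fun a b => hc.is_comm.comm a b }
  have h2 : (Nat.card G).Prime := IsSimpleGroup.prime_card
  rw [h1] at h2
  norm_num at h2

/-- certificate of the first kind -/
def c1 (A B n : List ℕ) (k : ℕ) : Bool :=
  eqW (n ++ A) (A ++ n) && (eqW (rp k (cw B n)) A && !(eqW A []))

theorem dead_c1 {A B n : List ℕ} {k : ℕ} (h : c1 A B n k = true) : Dead (⊤ : Subgroup G) (gw A) (gw B) := by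
  unfold c1 at h
  rw [Bool.and_eq_true, Bool.and_eq_true, Bool.not_eq_true'] at h
  obtain ⟨h1, h2, h3⟩ := h
  refine dead1 nice (ne_one_of h3) (n := gw n) (mem_top _) ?_ k ?_
  · rw [← gw_append, ← gw_append]; exact eq_of_eqW h1
  · rw [← gw_cw, ← gw_rp]; exact eq_of_eqW h2

/-- certificate of the second kind -/
def c2 (A B n : List ℕ) (k : ℕ) (m : List ℕ) (l : ℕ) : Bool :=
  eqW (n ++ A) (A ++ n) && (!(eqW (rp k (cw B n)) []) &&
    (eqW (m ++ rp k (cw B n)) (rp k (cw B n) ++ m) && eqW (rp l (cw A m)) (rp k (cw B n))))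

theorem dead_c2 {A B n m : List ℕ} {k l : ℕ} (h : c2 A B n k m l = true) : Dead (⊤ : Subgroup G) (gw A) (gw B) := by
  unfold c2 at h
  rw [Bool.and_eq_true, Bool.and_eq_true, Bool.and_eq_true, Bool.not_eq_true'] at h
  obtain ⟨h1, h2, h3, h4⟩ := h
  refine dead2 nice (n := gw n) (m := gw m) (y := gw (rp k (cw B n))) (mem_top _) ?_ k ?_ (ne_one_of h2) (mem_top _) ?_ l ?_
  · rw [← gw_append, ← gw_append]; exact eq_of_eqW h1
  · rw [← gw_cw, ← gw_rp]
  · rw [← gw_append, ← gw_append]; exact eq_of_eqW h3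
  · rw [← gw_cw, ← gw_rp]; exact eq_of_eqW h4

/-- reduction step -/
theorem dead_step {A B n : List ℕ} {k : ℕ} (h : eqW (n ++ A) (A ++ n) = true)
    (hD : Dead (⊤ : Subgroup G) (gw A) (gw (rp k (cw B n)))) : Dead (⊤ : Subgroup G) (gw A) (gw B) := by
  refine Dead.step (n := gw n) (mem_top _) ?_ k ?_ hD
  · rw [← gw_append, ← gw_append]; exact eq_of_eqW h
  · rw [← gw_cw, ← gw_rp]

/-! ### The nine classes -/

def r8 : List ℕ := [3, 1, 0]
def r9 : List ℕ := [4, 3, 0]
def r10 : List ℕ := [4, 2, 1]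
def r11 : List ℕ := [4, 3, 2]
def r12 : List ℕ := [4, 2, 1, 0]
def r13 : List ℕ := [4, 3, 1, 0]
def r15 : List ℕ := [4, 3, 2, 1, 0]
def r16 : List ℕ := [3, 2, 3, 2, 1]
def r17 : List ℕ := [4, 3, 1, 2, 1, 0]

theorem r_eq : rL 8 = r8 ∧ rL 9 = r9 ∧ rL 10 = r10 ∧ rL 11 = r11 ∧ rL 12 = r12 ∧ rL 13 = r13 ∧ rL 15 = r15 ∧
    rL 16 = r16 ∧ rL 17 = r17 := by decide +kernel

theorem d8 : Dead (⊤ : Subgroup G) (gw (rp 5 r8)) (gw (rp 2 r8)) :=
  dead_step (n := [4, 3, 0, 1, 2, 3, 4, 0]) (k := 1) (by decide +kernel)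
    (dead_c2 (n := [4, 3, 2, 3, 4, 0]) (k := 1) (m := [2]) (l := 2) (by decide +kernel))

theorem d9 : Dead (⊤ : Subgroup G) (gw (rp 3 r9)) (gw (rp 2 r9)) :=
  dead_c1 (n := [2]) (k := 2) (by decide +kernel)

theorem d10 : Dead (⊤ : Subgroup G) (gw (rp 3 r10)) (gw (rp 2 r10)) :=
  dead_c2 (n := [0, 1, 0]) (k := 1) (m := [3, 2, 3, 1, 2, 3, 4, 1, 2, 3, 2, 1]) (l := 5) (by decide +kernel)

theorem d11 : Dead (⊤ : Subgroup G) (gw (rp 6 r11)) (gw (rp 4 r11)) :=
  dead_c1 (n := [2]) (k := 2) (by decide +kernel)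

theorem d12 : Dead (⊤ : Subgroup G) (gw (rp 5 r12)) (gw (rp 2 r12)) :=
  dead_step (n := [2, 0, 1]) (k := 1) (by decide +kernel)
    (dead_c2 (n := [2]) (k := 1) (m := [3, 2, 3]) (l := 2) (by decide +kernel))

theorem d13 : Dead (⊤ : Subgroup G) (gw (rp 5 r13)) (gw (rp 3 r13)) :=
  dead_c2 (n := [2, 3, 4, 2, 3, 1, 2, 3, 4, 1, 2, 3, 2]) (k := 2) (m := [1, 2, 3, 2, 1, 0, 1, 2, 3, 2, 1]) (l := 2)
    (by decide +kernel)

theorem d15 : Dead (⊤ : Subgroup G) (gw (rp 5 r15)) (gw (rp 2 r15)) :=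
  dead_c1 (n := [1, 2, 3, 2, 3, 4, 1, 0, 1, 0]) (k := 5) (by decide +kernel)

theorem d16 : Dead (⊤ : Subgroup G) (gw (rp 5 r16)) (gw (rp 3 r16)) :=
  dead_c2 (n := [2]) (k := 2) (m := [4, 3, 2, 3, 4]) (l := 2) (by decide +kernel)

theorem d17 : Dead (⊤ : Subgroup G) (gw (rp 5 r17)) (gw (rp 2 r17)) :=
  dead_c1 (n := [4, 2, 3, 1, 2, 3, 4, 1, 2]) (k := 2) (by decide +kernel)

/-! ### General elements -/

section bad

variable {A : Type*} [Group A]

/-- every conjugate of `g` has a power of prime order in `H` -/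
def Bad (g : A) (H : Subgroup A) : Prop :=
  ∀ s : A, ∃ p : ℕ, p.Prime ∧ p ∣ orderOf g ∧ s * g ^ (orderOf g / p) * s⁻¹ ∈ H

theorem Bad.of_isConj {g g' : A} (h : IsConj g g') {H : Subgroup A} (hB : Bad g' H) : Bad g H := by
  obtain ⟨c, rfl⟩ := isConj_iff.1 h
  have ho : orderOf (c * g * c⁻¹) = orderOf g := by
    rw [← MulAut.conj_apply, MulEquiv.orderOf_eq]
  intro s
  obtain ⟨p, hp, hd, hm⟩ := hB (s * c⁻¹)
  rw [ho] at hd hm
  refine ⟨p, hp, hd, ?_⟩
  rw [conj_pow] at hm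
  have e : s * c⁻¹ * (c * g ^ (orderOf g / p) * c⁻¹) * (s * c⁻¹)⁻¹ = s * g ^ (orderOf g / p) * s⁻¹ := by group
  rwa [e] at hm

theorem Bad.map {B : Type*} [Group B] (e : A ≃* B) {g : A} {H : Subgroup A} (hB : Bad g H) :
    Bad (e g) (H.map e.toMonoidHom) := by
  intro s
  obtain ⟨p, hp, hd, hm⟩ := hB (e.symm s)
  refine ⟨p, hp, by rwa [MulEquiv.orderOf_eq], ?_⟩
  rw [MulEquiv.orderOf_eq]
  refine ⟨_, hm, ?_⟩
  simp

end bad

/-- one prime -/
theorem absurd_one {g : G} {H : Subgroup G} (hH : H ≠ ⊤) (hB : Bad g H) {p : ℕ} (hp0 : p.Prime)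
    (hp : ∀ q : ℕ, q.Prime → q ∣ orderOf g → q = p) : False := by
  obtain ⟨q, hq, hd, -⟩ := hB 1
  rw [hp q hq hd] at hd
  have ho : 0 < orderOf g := orderOf_pos g
  refine nice.absurd (H := H) (a := g ^ (orderOf g / p)) (fun h => hH (top_le_iff.1 h)) ?_ ?_
  · intro h1
    have h2 := orderOf_dvd_of_pow_eq_one h1
    have h3 : 0 < orderOf g / p := Nat.div_pos (Nat.le_of_dvd ho hd) hp0.pos
    have h4 := Nat.le_of_dvd h3 h2
    have h5 := Nat.div_lt_self ho hp0.one_lt
    omega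
  · intro s _
    obtain ⟨q, hq, hd, hm⟩ := hB s
    rw [hp q hq hd] at hm
    exact Or.inl hm

/-- two primes -/
theorem absurd_two {W : List ℕ} {H : Subgroup G} (hH : H ≠ ⊤) (hB : Bad (gw W) H) {m p q : ℕ} (hm : orderOf (gw W) = m)
    (hpq : ∀ r : ℕ, r.Prime → r ∣ m → r = p ∨ r = q)
    (hD : Dead (⊤ : Subgroup G) (gw (rp (m / p) W)) (gw (rp (m / q) W))) : False := by
  refine hD H (fun h => hH (top_le_iff.1 h)) ?_
  intro s _
  obtain ⟨r, hr, hd, hm'⟩ := hB s
  rw [hm] at hd hm'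
  rw [gw_rp, gw_rp]
  rcases hpq r hr hd with rfl | rfl
  · exact Or.inl hm'
  · exact Or.inr hm'

theorem pr (m : ℕ) (hm : m ∣ 2 ^ 3 * 3 * 5 * 7) {r : ℕ} (hr : r.Prime) (hd : r ∣ m) : r = 2 ∨ r = 3 ∨ r = 5 ∨ r = 7 := by
  have h1 := hd.trans hm
  rw [hr.dvd_mul, hr.dvd_mul, hr.dvd_mul] at h1
  rcases h1 with ((h1 | h1) | h1) | h1
  · exact Or.inl ((Nat.prime_dvd_prime_iff_eq hr Nat.prime_two).1 (hr.dvd_of_dvd_pow h1))
  · exact Or.inr (Or.inl ((Nat.prime_dvd_prime_iff_eq hr Nat.prime_three).1 h1))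
  · exact Or.inr (Or.inr (Or.inl ((Nat.prime_dvd_prime_iff_eq hr Nat.prime_five).1 h1)))
  · exact Or.inr (Or.inr (Or.inr ((Nat.prime_dvd_prime_iff_eq hr (by norm_num)).1 h1)))

/-- **no element of `J₂` is bad** -/
theorem not_bad_model (g : G) {H : Subgroup G} (hH : H ≠ ⊤) : ¬ Bad g H := by
  intro hB
  obtain ⟨j, hj, -, -⟩ := type g
  have hB' := hB.of_isConj hj
  have ho := order_r j.2
  obtain ⟨e8, e9, e10, e11, e12, e13, e15, e16, e17⟩ := r_eq
  have one : ∀ (m p : ℕ), ov j = m → p.Prime → (∀ r : ℕ, r.Prime → r ∣ m → r = p) → False := by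
    intro m p hm hp h
    exact absurd_one hH hB' hp fun q hq hd => h q hq (by rw [← hm, ← ho]; exact hd)
  have hpr : ∀ (m : ℕ), m ∣ 2 ^ 3 * 3 * 5 * 7 → ∀ (L : List ℕ), (∀ r ∈ [2, 3, 5, 7], m % r = 0 → r ∈ L) →
      ∀ r : ℕ, r.Prime → r ∣ m → r ∈ L := by
    intro m hm L hL r hr hd
    refine hL r ?_ (Nat.mod_eq_zero_of_dvd hd)
    rcases pr m hm hr hd with rfl | rfl | rfl | rfl <;> simp
  fin_cases j
  · exact one 1 2 rfl Nat.prime_two fun r hr hd => absurd (Nat.dvd_one.1 hd) hr.one_lt.ne'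
  · exact one 2 2 rfl Nat.prime_two fun r hr hd => (Nat.prime_dvd_prime_iff_eq hr Nat.prime_two).1 hd
  · exact one 2 2 rfl Nat.prime_two fun r hr hd => (Nat.prime_dvd_prime_iff_eq hr Nat.prime_two).1 hd
  · exact one 5 5 rfl Nat.prime_five fun r hr hd => (Nat.prime_dvd_prime_iff_eq hr Nat.prime_five).1 hd
  · exact one 3 3 rfl Nat.prime_three fun r hr hd => (Nat.prime_dvd_prime_iff_eq hr Nat.prime_three).1 hd
  · exact one 8 2 rfl Nat.prime_two fun r hr hd => by
      simpa using hpr 8 (by norm_num) [2] (by decide) r hr hd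
  · exact one 3 3 rfl Nat.prime_three fun r hr hd => (Nat.prime_dvd_prime_iff_eq hr Nat.prime_three).1 hd
  · exact one 5 5 rfl Nat.prime_five fun r hr hd => (Nat.prime_dvd_prime_iff_eq hr Nat.prime_five).1 hd
  · change Bad (gw (rL 8)) H at hB'
    change orderOf (gw (rL 8)) = 10 at ho
    rw [e8] at hB' ho
    exact absurd_two (m := 10) (p := 2) (q := 5) hH hB' ho (fun r hr hd => by
      simpa using hpr 10 (by norm_num) [2, 5] (by decide) r hr hd) d8
  · change Bad (gw (rL 9)) H at hB'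
    change orderOf (gw (rL 9)) = 6 at ho
    rw [e9] at hB' ho
    exact absurd_two (m := 6) (p := 2) (q := 3) hH hB' ho (fun r hr hd => by
      simpa using hpr 6 (by norm_num) [2, 3] (by decide) r hr hd) d9
  · change Bad (gw (rL 10)) H at hB'
    change orderOf (gw (rL 10)) = 6 at ho
    rw [e10] at hB' ho
    exact absurd_two (m := 6) (p := 2) (q := 3) hH hB' ho (fun r hr hd => by
      simpa using hpr 6 (by norm_num) [2, 3] (by decide) r hr hd) d10
  · change Bad (gw (rL 11)) H at hB'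
    change orderOf (gw (rL 11)) = 12 at ho
    rw [e11] at hB' ho
    exact absurd_two (m := 12) (p := 2) (q := 3) hH hB' ho (fun r hr hd => by
      simpa using hpr 12 (by norm_num) [2, 3] (by decide) r hr hd) d11
  · change Bad (gw (rL 12)) H at hB'
    change orderOf (gw (rL 12)) = 10 at ho
    rw [e12] at hB' ho
    exact absurd_two (m := 10) (p := 2) (q := 5) hH hB' ho (fun r hr hd => by
      simpa using hpr 10 (by norm_num) [2, 5] (by decide) r hr hd) d12
  · change Bad (gw (rL 13)) H at hB'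
    change orderOf (gw (rL 13)) = 15 at ho
    rw [e13] at hB' ho
    exact absurd_two (m := 15) (p := 3) (q := 5) hH hB' ho (fun r hr hd => by
      simpa using hpr 15 (by norm_num) [3, 5] (by decide) r hr hd) d13
  · exact one 4 2 rfl Nat.prime_two fun r hr hd => by
      simpa using hpr 4 (by norm_num) [2] (by decide) r hr hd
  · change Bad (gw (rL 15)) H at hB'
    change orderOf (gw (rL 15)) = 10 at ho
    rw [e15] at hB' ho
    exact absurd_two (m := 10) (p := 2) (q := 5) hH hB' ho (fun r hr hd => by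
      simpa using hpr 10 (by norm_num) [2, 5] (by decide) r hr hd) d15
  · change Bad (gw (rL 16)) H at hB'
    change orderOf (gw (rL 16)) = 15 at ho
    rw [e16] at hB' ho
    exact absurd_two (m := 15) (p := 3) (q := 5) hH hB' ho (fun r hr hd => by
      simpa using hpr 15 (by norm_num) [3, 5] (by decide) r hr hd) d16
  · change Bad (gw (rL 17)) H at hB'
    change orderOf (gw (rL 17)) = 10 at ho
    rw [e17] at hB' ho
    exact absurd_two (m := 10) (p := 2) (q := 5) hH hB' ho (fun r hr hd => by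
      simpa using hpr 10 (by norm_num) [2, 5] (by decide) r hr hd) d17
  · exact one 7 7 rfl (by norm_num) fun r hr hd => (Nat.prime_dvd_prime_iff_eq hr (by norm_num)).1 hd
  · exact one 5 5 rfl Nat.prime_five fun r hr hd => (Nat.prime_dvd_prime_iff_eq hr Nat.prime_five).1 hd
  · exact one 5 5 rfl Nat.prime_five fun r hr hd => (Nat.prime_dvd_prime_iff_eq hr Nat.prime_five).1 hd

theorem not_bad {K : Type*} [Group K] (h : Spor.IsoJ2 K) (g : K) {H : Subgroup K} (hH : H ≠ ⊤) : ¬ Bad g H := by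
  intro hB
  obtain ⟨E⟩ := Cfsg.Agent.J2.HundredGens.J2_iso Cfsg.Agent.S1619.result.2.2.2
  obtain ⟨e⟩ := h
  refine not_bad_model _ ?_ (hB.map (e.trans E))
  intro h1
  apply hH
  rw [eq_top_iff]
  intro x _
  have h2 : (e.trans E) x ∈ H.map (e.trans E).toMonoidHom := by rw [h1]; trivial
  obtain ⟨y, hy, hyx⟩ := h2
  have h3 : y = x := (e.trans E).injective hyx
  rwa [← h3]

open Cfsg.Agent.H106.RC in
/-- **inner elements of `J₂`** -/
theorem inner {K : Type} [Group K] [Finite K] {Ω : Type*} [MulAction K Ω] (h : Spor.IsoJ2 K)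
    (hF : ∀ t : K, t ≠ 1 → ∃ ω : Ω, t • ω ≠ ω) {ι : Type*} [Finite ι] {x : ι → K} {r : ι → ℕ} (hx : PF x r)
    (hc : Cov Ω x) : False := by
  have : Fintype ι := Fintype.ofFinite ι
  obtain ⟨g, ho, hm⟩ := H345.RG.exists_prod hx
  have hcard : Nat.card K = 604800 := H715.Fpr.J2.card h
  obtain ⟨t, ht⟩ : ∃ t : K, t ≠ 1 := by
    by_contra hno
    push Not at hno
    have : Subsingleton K := ⟨fun a b => (hno a).trans (hno b).symm⟩
    rw [Nat.card_of_subsingleton (1 : K)] at hcard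
    norm_num at hcard
  obtain ⟨ω, hω⟩ := hF t ht
  refine not_bad h g (H := stabilizer K ω) (fun h1 => hω ?_) ?_
  · have : t ∈ stabilizer K ω := by rw [h1]; trivial
    exact this
  intro s
  obtain ⟨i, hi⟩ := hc (s⁻¹ • ω)
  refine ⟨r i, hx.prime i, ?_, ?_⟩
  · rw [ho]; exact Finset.dvd_prod_of_mem _ (Finset.mem_univ i)
  · have hdi : r i ∣ orderOf g := by rw [ho]; exact Finset.dvd_prod_of_mem _ (Finset.mem_univ i)
    have hpi := hx.prime i
    have hoi : orderOf (x i) = r i := by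
      have := Fact.mk hpi
      exact orderOf_eq_prime (hx.pow i) (hx.ne i)
    have hpos : 0 < orderOf g := orderOf_pos g
    have hoy : orderOf (g ^ (orderOf g / r i)) = r i := orderOf_pow_orderOf_div hpos.ne' hdi
    -- both generate the subgroup of order `r i` of `⟨g⟩`
    have hzz : zpowers (x i) = zpowers (g ^ (orderOf g / r i)) :=
      OddOrderLocal.CyclicSub.eq_of_card_eq_of_le_cyclic (Z := zpowers g) inferInstance (zpowers_le.2 (hm i))
        (zpowers_le.2 (pow_mem (mem_zpowers g) _)) (by rw [Nat.card_zpowers, Nat.card_zpowers, hoi, hoy])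
    have hfix : x i ∈ stabilizer K (s⁻¹ • ω) := hi
    have h3 : g ^ (orderOf g / r i) ∈ stabilizer K (s⁻¹ • ω) := by
      have h4 : zpowers (x i) ≤ stabilizer K (s⁻¹ • ω) := zpowers_le.2 hfix
      rw [hzz] at h4
      exact h4 (mem_zpowers _)
    have h5 : g ^ (orderOf g / r i) • s⁻¹ • ω = s⁻¹ • ω := h3
    rw [mem_stabilizer_iff, mul_smul, mul_smul, h5, smul_inv_smul]

end Cfsg.Agent.H90.RC.JTwo
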